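import Cfsg.Agent.Lib.Helper28.TCChain

set_option autoImplicit false

namespace Cfsg.Agent.Lib.Helper93.Sz8

/-- relator words for `Sz(8):3`; the letters `0 … 6` are `f, f⁻¹, t, t⁻¹, u, u⁻¹, w` (`f` the field
automorphism, `t` of order 7 in the torus, `u` of order 4 in the unipotent radical, `w` the Weyl involution) -/
def W : List (List ℕ) := [
  [0, 0, 0],
  [0, 2, 1, 3, 3],
  [0, 4, 1, 5],
  [0, 2, 2, 5, 2, 1, 5, 2, 5],
  [2, 4, 3, 4, 4, 2, 5, 3, 4, 4],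
  [0, 6, 1, 6],
  [2, 6, 2, 6],
  [4, 4, 6, 4, 6, 5, 6]]
/-- inverse letters -/
def oinv : ℕ → ℕ
  | 0 => 1
  | 1 => 0
  | 2 => 3
  | 3 => 2
  | 4 => 5
  | 5 => 4
  | x => x

end Cfsg.Agent.Lib.Helper93.Sz8
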