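import Cfsg.Agent.Lib.Helper28.TCChain
import Cfsg.Agent.Lib.Helper93.Sz8.Data
import Cfsg.Agent.Lib.Helper93.Sz8.W

/-!
# Seven permutations of 65 points satisfying the relations of `Sz(8):3` (helper93)
-/

set_option autoImplicit false
set_option maxRecDepth 100000

namespace Cfsg.Agent.Lib.Helper93.Sz8

open Cfsg.Agent.Lib.Helper28

abbrev P65 : Type := Equiv.Perm (Fin 65)

/-- the table of a letter -/
def tabA (x c : ℕ) : ℕ := Nat.land (Nat.shiftRight (tabP x) (Nat.mul 7 c)) 127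

theorem tabA_lt : ∀ x < 7, ∀ c < 65, tabA x c < 65 := by decide +kernel

theorem tabA_inv : ∀ x < 7, ∀ c < 65, tabA (oinv x) (tabA x c) = c ∧ tabA x (tabA (oinv x) c) = c := by
  decide +kernel

theorem oinv_lt : ∀ x < 7, oinv x < 7 := by decide

/-- the map of a letter -/
def pA (x : ℕ) (i : Fin 65) : Fin 65 := Fin.ofNat 65 (tabA x i.val)

theorem pA_val (x : ℕ) (hx : x < 7) (i : Fin 65) : (pA x i).val = tabA x i.val :=
  Nat.mod_eq_of_lt (tabA_lt x hx i.val i.isLt)

/-- the letters as permutations -/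
def vA (x : ℕ) : P65 :=
  if h : x < 7 then
    ⟨pA x, pA (oinv x),
      fun i => Fin.ext (by rw [pA_val _ (oinv_lt x h), pA_val _ h]; exact (tabA_inv x h i.val i.isLt).1),
      fun i => Fin.ext (by rw [pA_val _ h, pA_val _ (oinv_lt x h)]; exact (tabA_inv x h i.val i.isLt).2)⟩
  else 1

theorem vA_apply (x : ℕ) (hx : x < 7) (i : Fin 65) : ((vA x) i).val = tabA x i.val := by
  unfold vA
  rw [dif_pos hx]
  exact pA_val x hx i

/-- tracing a word (left action) -/
def trL : List ℕ → ℕ → ℕ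
  | [], c => c
  | x :: w, c => tabA x (trL w c)

theorem evalWA_apply (w : List ℕ) (hw : ∀ y ∈ w, y < 7) (i : Fin 65) :
    ((evalW vA w) i).val = trL w i.val := by
  induction w with
  | nil => rfl
  | cons x w ih =>
    rw [evalW_cons, Equiv.Perm.mul_apply, vA_apply x (hw x List.mem_cons_self),
      ih (fun y hy => hw y (List.mem_cons_of_mem _ hy))]
    rfl

theorem W_chk : ∀ w ∈ W, (∀ y ∈ w, y < 7) ∧ ∀ c < 65, trL w c = c := by decide +kernel

theorem vA_W : ∀ w ∈ W, evalW vA w = 1 := by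
  intro w hw
  obtain ⟨h1, h2⟩ := W_chk w hw
  ext i
  rw [evalWA_apply w h1 i, h2 i.val i.isLt]
  rfl

theorem vA_oinv : ∀ y < 7, vA (oinv y) = (vA y)⁻¹ := by
  intro y hy
  have h : vA y * vA (oinv y) = 1 := by
    ext i
    rw [Equiv.Perm.mul_apply, vA_apply y hy, vA_apply _ (oinv_lt y hy),
      (tabA_inv y hy i.val i.isLt).2]
    rfl
  exact eq_inv_of_mul_eq_one_right h

end Cfsg.Agent.Lib.Helper93.Sz8
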