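import Cfsg.Agent.Lib.Helper93.U34.Gen

/-!
# Fast products of packed `48 × 48` matrices over `F₂` (helper93)
-/

set_option autoImplicit false

namespace Cfsg.Agent.Lib.Helper93.Sz8

abbrev M48 : Type := Matrix (Fin 48) (Fin 48) (ZMod 2)

/-- bits as field elements -/
def toZ (b : Bool) : ZMod 2 := if b then 1 else 0

theorem toZ_xor (a b : Bool) : toZ (a ^^ b) = toZ a + toZ b := by
  cases a <;> cases b <;> decide

/-- the `i`-th row of a packed matrix -/
def rowC (T i : ℕ) : ℕ := Nat.land (Nat.shiftRight T (Nat.mul 48 i)) 281474976710655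

/-- decoding of `48 × 48` matrices -/
def mat48 (T : ℕ) : M48 := Matrix.of fun i j => toZ ((rowC T i.val).testBit j.val)

/-- the combination of the first `n` rows of `Q` with coefficients the bits of `a` -/
def mulRow (a Q : ℕ) : ℕ → ℕ
  | 0 => 0
  | n + 1 => Nat.xor (mulRow a Q n) (if a.testBit n then rowC Q n else 0)

theorem testBit_mulRow (a Q j : ℕ) : ∀ n : ℕ, toZ ((mulRow a Q n).testBit j) =
    ∑ k ∈ Finset.range n, toZ (a.testBit k) * toZ ((rowC Q k).testBit j) := by
  intro n
  induction n with
  | zero => simp [mulRow, toZ]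
  | succ n ih =>
    rw [Finset.sum_range_succ, ← ih]
    show toZ ((mulRow a Q n ^^^ (if a.testBit n then rowC Q n else 0)).testBit j) = _
    rw [Nat.testBit_xor, toZ_xor]
    congr 1
    by_cases h : a.testBit n
    · simp [h, toZ]
    · simp [h, toZ]

/-- check of a product -/
def chkRows (P Q R : ℕ) : ℕ → Bool
  | 0 => true
  | n + 1 => Nat.beq (mulRow (rowC P n) Q 48) (rowC R n) && chkRows P Q R n

theorem chkRows_sound (P Q R : ℕ) : ∀ n : ℕ, chkRows P Q R n = true →
    ∀ i < n, mulRow (rowC P i) Q 48 = rowC R i := by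
  intro n
  induction n with
  | zero => intro _ i hi; omega
  | succ n ih =>
    intro h i hi
    simp only [chkRows, Bool.and_eq_true] at h
    rcases Nat.lt_succ_iff_lt_or_eq.mp hi with h' | rfl
    · exact ih h.2 i h'
    · exact Nat.eq_of_beq_eq_true h.1

theorem mat48_mul (P Q R : ℕ) (h : chkRows P Q R 48 = true) : mat48 P * mat48 Q = mat48 R := by
  ext i j
  rw [Matrix.mul_apply]
  show ∑ k : Fin 48, toZ ((rowC P i.val).testBit k.val) * toZ ((rowC Q k.val).testBit j.val) =
    toZ ((rowC R i.val).testBit j.val)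
  rw [← chkRows_sound P Q R 48 h i.val i.isLt, testBit_mulRow,
    Fin.sum_univ_eq_sum_range
      (fun k => toZ ((rowC P i.val).testBit k) * toZ ((rowC Q k).testBit j.val)) 48]

/-- check of a chain of products of coded matrices -/
def chainF (A : ℕ → ℕ) : ℕ → List ℕ → List ℕ → Bool
  | _, [], [] => true
  | P, x :: w, P' :: Ps => chkRows P (A x) P' 48 && chainF A P' w Ps
  | _, _, _ => false

theorem chainF_sound (A : ℕ → ℕ) : ∀ (w Ps : List ℕ) (P : ℕ), chainF A P w Ps = true →
    mat48 P * (w.map fun x => mat48 (A x)).prod = mat48 (Ps.getLastD P) := by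
  intro w
  induction w with
  | nil =>
    intro Ps P h
    cases Ps with
    | nil => simp
    | cons a l => simp [chainF] at h
  | cons x w ih =>
    intro Ps P h
    cases Ps with
    | nil => simp [chainF] at h
    | cons P' Ps =>
      simp only [chainF, Bool.and_eq_true] at h
      rw [List.map_cons, List.prod_cons, ← mul_assoc, mat48_mul _ _ _ h.1, ih Ps P' h.2,
        List.getLastD_cons]

theorem prod_of_chainF (A : ℕ → ℕ) (I : ℕ) (hI : mat48 I = 1) (w Ps : List ℕ)
    (h : chainF A I w Ps = true) : (w.map fun x => mat48 (A x)).prod = mat48 (Ps.getLastD I) := by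
  have := chainF_sound A w Ps I h
  rwa [hI, one_mul] at this

end Cfsg.Agent.Lib.Helper93.Sz8
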