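import Cfsg.Agent.Lib.Helper28.TCChain
import Cfsg.Agent.Lib.Helper93.Sz8.Gen
import Cfsg.Agent.Lib.Helper93.Sz8.Data
import Cfsg.Agent.Lib.Helper93.Sz8.W

/-!
# Seven letters in `GL₄₈(2)` satisfying the relations of `Sz(8):3` (helper93)
-/

set_option autoImplicit false
set_option maxRecDepth 100000

namespace Cfsg.Agent.Lib.Helper93.Sz8

open Cfsg.Agent.Lib.Helper28

theorem mat48_ID : mat48 ID48 = 1 := by decide +kernel

/-- the matrices of the letters -/
def Bx (x : ℕ) : M48 := mat48 (BT.getD x ID48)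

theorem B_inv0 : ∀ y < 7, chkRows (BT.getD y ID48) (BT.getD (oinv y) ID48) ID48 48 = true ∧
    chkRows (BT.getD (oinv y) ID48) (BT.getD y ID48) ID48 48 = true := by decide +kernel

theorem B_inv (y : ℕ) (hy : y < 7) : Bx y * Bx (oinv y) = 1 ∧ Bx (oinv y) * Bx y = 1 := by
  obtain ⟨h1, h2⟩ := B_inv0 y hy
  exact ⟨(mat48_mul _ _ _ h1).trans mat48_ID, (mat48_mul _ _ _ h2).trans mat48_ID⟩

/-- the letters in `GL₄₈(2)` -/
def vB (x : ℕ) : GL (Fin 48) (ZMod 2) :=
  if h : x < 7 then ⟨Bx x, Bx (oinv x), (B_inv x h).1, (B_inv x h).2⟩ else 1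

theorem Bx_ge (x : ℕ) (h : ¬ x < 7) : Bx x = 1 := by
  unfold Bx
  rw [List.getD_eq_default _ _ (by show 7 ≤ x; omega), mat48_ID]

theorem coe_vB (x : ℕ) : ((vB x : GL (Fin 48) (ZMod 2)) : M48) = Bx x := by
  unfold vB
  split_ifs with h
  · rfl
  · rw [Bx_ge x h]; rfl

theorem coe_evalWB (w : List ℕ) : ((evalW vB w : GL (Fin 48) (ZMod 2)) : M48) = (w.map Bx).prod := by
  induction w with
  | nil => rfl
  | cons x w ih =>
    rw [evalW_cons, Units.val_mul, coe_vB, ih, List.map_cons, List.prod_cons]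

theorem wordB (w Ps : List ℕ) (h : chainF (fun k => BT.getD k ID48) ID48 w Ps = true) :
    ((evalW vB w : GL (Fin 48) (ZMod 2)) : M48) = mat48 (Ps.getLastD ID48) := by
  rw [coe_evalWB]
  exact prod_of_chainF _ ID48 mat48_ID w Ps h

theorem rchB_ok : ∀ i < W.length,
    chainF (fun k => BT.getD k ID48) ID48 (W.getD i []) (rchB.getD i []) = true ∧
    (rchB.getD i []).getLastD ID48 = ID48 := by decide +kernel

theorem vB_W : ∀ w ∈ W, evalW vB w = 1 := by
  intro w hw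
  obtain ⟨i, hi, rfl⟩ := List.getElem_of_mem hw
  obtain ⟨h1, h2⟩ := rchB_ok i hi
  rw [List.getD_eq_getElem _ _ hi] at h1
  apply Units.ext
  rw [wordB _ _ h1, h2, mat48_ID]
  rfl

theorem vB_oinv : ∀ y < 7, vB (oinv y) = (vB y)⁻¹ := by
  intro y hy
  have h : vB y * vB (oinv y) = 1 := by
    apply Units.ext
    rw [Units.val_mul, coe_vB, coe_vB, (B_inv y hy).1]
    rfl
  exact eq_inv_of_mul_eq_one_right h

theorem word13B : ((evalW vB w13 : GL (Fin 48) (ZMod 2)) : M48) = mat48 D13 :=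
  wordB w13 wchB13 (by decide +kernel)

theorem word5B : ((evalW vB w5 : GL (Fin 48) (ZMod 2)) : M48) = mat48 D5 :=
  wordB w5 wchB5 (by decide +kernel)

theorem word7B : ((evalW vB w7 : GL (Fin 48) (ZMod 2)) : M48) = mat48 D7 :=
  wordB w7 wchB7 (by decide +kernel)

theorem sub13B : mat48 D13 - 1 = mat48 E13 := by decide +kernel

theorem inv13B : mat48 N13 * (mat48 D13 - 1) = 1 := by
  rw [sub13B, mat48_mul N13 E13 ID48 (by decide +kernel), mat48_ID]

/-- decoding of vectors -/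
def vec48 (c : ℕ) : Fin 48 → ZMod 2 := fun i => toZ (c.testBit i.val)

theorem fix5B : (mat48 D5).mulVec (vec48 fv5) = vec48 fv5 ∧ vec48 fv5 ≠ 0 := by decide +kernel

theorem fix7B : (mat48 D7).mulVec (vec48 fv7) = vec48 fv7 ∧ vec48 fv7 ≠ 0 := by decide +kernel

end Cfsg.Agent.Lib.Helper93.Sz8
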