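import Cfsg.Agent.Lib.Helper93.PGExt
import Cfsg.Agent.Lib.Helper93.S63.Good

/-!
# The prime graph of `2^{n B} : L` for a group `L` like `Sz(8):3` (helper93)
-/

set_option autoImplicit false

namespace Cfsg.Agent.Lib.Helper93.Sz8

open Cfsg.Agent.Lib.Helper61 Cfsg.Agent.Lib.Helper93.S63 SemidirectProduct

variable {n : ℕ} {L : Type} [Group L] (ρ : L →* GL (Fin n) (ZMod 2))

/-- the normal subgroup -/
abbrev NB (n B : ℕ) : Type := Multiplicative (Matrix (Fin n) (Fin B) (ZMod 2))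

/-- the action -/
def phi (B : ℕ) : L →* MulAut (NB n B) := glAut.comp ρ

/-- the extension -/
abbrev HB (B : ℕ) : Type := NB n B ⋊[phi ρ B] L

theorem finite_HB [Finite L] (B : ℕ) : Finite (HB ρ B) :=
  Finite.of_equiv _ SemidirectProduct.equivProd.symm

theorem card_NB (B : ℕ) : Nat.card (NB n B) = 2 ^ (n * B) := by
  rw [Nat.card_congr Multiplicative.toAdd, Nat.card_eq_fintype_card]
  show Fintype.card (Fin n → Fin B → ZMod 2) = _
  rw [Fintype.card_fun, Fintype.card_fun, Fintype.card_fin, Fintype.card_fin, ← pow_mul, mul_comm,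
    ZMod.card]

theorem card_HB (B : ℕ) (hc : Nat.card L = 87360) : Nat.card (HB ρ B) = 2 ^ (n * B) * 87360 := by
  rw [SemidirectProduct.card, card_NB, hc]

theorem lt_card_HB (hn : 0 < n) (B : ℕ) (hc : Nat.card L = 87360) : B < Nat.card (HB ρ (B + 1)) := by
  rw [card_HB ρ _ hc]
  calc B < 2 ^ B := Nat.lt_two_pow_self
    _ ≤ 2 ^ (n * (B + 1)) := Nat.pow_le_pow_right (by norm_num) (by nlinarith)
    _ ≤ 2 ^ (n * (B + 1)) * 87360 := Nat.le_mul_of_pos_right _ (by norm_num)

theorem prime_dvd_card (s : ℕ) (hs : s.Prime) (hd : s ∣ 87360) :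
    s = 2 ∨ s = 3 ∨ s = 5 ∨ s = 7 ∨ s = 13 := by
  rw [show 87360 = 2 ^ 6 * (3 * (5 * (7 * 13))) by norm_num] at hd
  rcases hs.dvd_mul.mp hd with h | h
  · exact Or.inl ((Nat.prime_dvd_prime_iff_eq hs (by norm_num)).mp (hs.dvd_of_dvd_pow h))
  rcases hs.dvd_mul.mp h with h | h
  · exact Or.inr (Or.inl ((Nat.prime_dvd_prime_iff_eq hs (by norm_num)).mp h))
  rcases hs.dvd_mul.mp h with h | h
  · exact Or.inr (Or.inr (Or.inl ((Nat.prime_dvd_prime_iff_eq hs (by norm_num)).mp h)))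
  rcases hs.dvd_mul.mp h with h | h
  · exact Or.inr (Or.inr (Or.inr (Or.inl ((Nat.prime_dvd_prime_iff_eq hs (by norm_num)).mp h))))
  · exact Or.inr (Or.inr (Or.inr (Or.inr ((Nat.prime_dvd_prime_iff_eq hs (by norm_num)).mp h))))

theorem isP (B : ℕ) : IsPGroup 2 (NB n B) := isPGroup_matrix 2

/-- the matrix all of whose columns are `v` -/
def colM (B : ℕ) (v : Fin n → ZMod 2) : NB n B := Multiplicative.ofAdd (Matrix.of fun i _ => v i)

theorem phi_colM (B : ℕ) (g : L) (v : Fin n → ZMod 2)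
    (h : (ρ g : Matrix (Fin n) (Fin n) (ZMod 2)).mulVec v = v) :
    phi ρ B g (colM B v) = colM B v := by
  apply Multiplicative.toAdd.injective
  show (ρ g : Matrix (Fin n) (Fin n) (ZMod 2)) * (Matrix.of fun i _ => v i) = Matrix.of fun i _ => v i
  ext i j
  rw [Matrix.mul_apply]
  exact congrFun h i

theorem orderOf_colM (B : ℕ) (v : Fin n → ZMod 2) (hv : v ≠ 0) : orderOf (colM (B + 1) v) = 2 := by
  have : Fact (Nat.Prime 2) := ⟨Nat.prime_two⟩
  apply orderOf_eq_prime
  · apply Multiplicative.toAdd.injective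
    show (2 : ℕ) • (Matrix.of fun i _ => v i : Matrix (Fin n) (Fin (B + 1)) (ZMod 2)) = 0
    ext i j
    simp only [Matrix.smul_apply, Matrix.of_apply, Matrix.zero_apply, nsmul_eq_mul]
    rw [ZMod.natCast_self 2, zero_mul]
  · intro h
    apply hv
    funext i
    exact congrFun (congrFun (congrArg Multiplicative.toAdd h) i) 0

theorem exists_two_mul (B : ℕ) (g : L) (v : Fin n → ZMod 2) (s : ℕ) (hs : Nat.Coprime 2 s)
    (hg : orderOf g = s) (hv : v ≠ 0) (h : (ρ g : Matrix (Fin n) (Fin n) (ZMod 2)).mulVec v = v) :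
    ∃ y : HB ρ (B + 1), orderOf y = 2 * s := by
  refine ⟨inl (colM (B + 1) v) * inr g, ?_⟩
  have hc : Commute (inl (colM (B + 1) v) : HB ρ (B + 1)) (inr g) := by
    have h1 := SemidirectProduct.inl_aut (φ := phi ρ (B + 1)) g (colM (B + 1) v)
    rw [phi_colM ρ (B + 1) g v h] at h1
    show inl (colM (B + 1) v) * inr g = inr g * inl (colM (B + 1) v)
    conv_lhs => rw [h1]
    rw [map_inv, inv_mul_cancel_right]
  have o1 : orderOf (inl (colM (B + 1) v) : HB ρ (B + 1)) = 2 := by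
    rw [orderOf_injective _ inl_injective, orderOf_colM B v hv]
  have o2 : orderOf (inr g : HB ρ (B + 1)) = s := by
    rw [orderOf_injective _ inr_injective, hg]
  rw [hc.orderOf_mul_eq_mul_orderOf_of_coprime (by rw [o1, o2]; exact hs), o1, o2]

theorem no_odd (hdvd : ∀ g : L, orderOf g ∣ 12 ∨ orderOf g ∣ 15 ∨ orderOf g ∣ 7 ∨ orderOf g ∣ 13)
    (B m : ℕ) (hm : Nat.Coprime m 2) (h12 : ¬ m ∣ 12) (h15 : ¬ m ∣ 15) (h7 : ¬ m ∣ 7)
    (h13 : ¬ m ∣ 13) (y : HB ρ B) : orderOf y ≠ m := by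
  intro hy
  have h := orderOf_map_of_coprime (rightHom : HB ρ B →* L) 2
    (isPGroup_ker_rightHom (phi ρ B) 2 (isP B)) y (by rw [hy]; exact hm)
  rw [hy] at h
  rcases hdvd (rightHom y) with e | e | e | e <;> rw [h] at e
  · exact h12 e
  · exact h15 e
  · exact h7 e
  · exact h13 e

theorem no_26 (hdvd : ∀ g : L, orderOf g ∣ 12 ∨ orderOf g ∣ 15 ∨ orderOf g ∣ 7 ∨ orderOf g ∣ 13)
    (h13 : ∀ (g : L) (v : Fin n → ZMod 2), orderOf g = 13 →
      (ρ g : Matrix (Fin n) (Fin n) (ZMod 2)).mulVec v = v → v = 0)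
    (B : ℕ) (y : HB ρ B) : orderOf y ≠ 26 := by
  intro hy
  obtain ⟨x, hx⟩ := PGExt.exists_orderOf_of_semidirect' (phi ρ B) 2 Nat.prime_two (isP B) 13
    (by norm_num) (by norm_num) (by
      intro g M hg hM hgM
      exfalso
      have hM' : Multiplicative.toAdd M ≠ 0 := fun h => hM (Multiplicative.toAdd.injective h)
      obtain ⟨i, j, hij⟩ : ∃ i j, Multiplicative.toAdd M i j ≠ 0 := by
        by_contra hcon
        push Not at hcon
        exact hM' (by ext i j; exact hcon i j)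
      have h0 := h13 g (fun i => Multiplicative.toAdd M i j) hg (by
        have h1 : (ρ g : Matrix (Fin n) (Fin n) (ZMod 2)) * Multiplicative.toAdd M =
            Multiplicative.toAdd M := congrArg Multiplicative.toAdd hgM
        ext i'
        have h2 := congrFun (congrFun h1 i') j
        rw [Matrix.mul_apply] at h2
        exact h2)
      exact hij (congrFun h0 i)) y hy
  rcases hdvd x with e | e | e | e <;> rw [hx] at e <;> norm_num at e

theorem good_HB (hc : Nat.card L = 87360)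
    (hdvd : ∀ g : L, orderOf g ∣ 12 ∨ orderOf g ∣ 15 ∨ orderOf g ∣ 7 ∨ orderOf g ∣ 13)
    (h6 : ∃ g : L, orderOf g = 6) (h15 : ∃ g : L, orderOf g = 15)
    (h5 : ∃ (g : L) (v : Fin n → ZMod 2), orderOf g = 5 ∧ v ≠ 0 ∧
      (ρ g : Matrix (Fin n) (Fin n) (ZMod 2)).mulVec v = v)
    (h7 : ∃ (g : L) (v : Fin n → ZMod 2), orderOf g = 7 ∧ v ≠ 0 ∧
      (ρ g : Matrix (Fin n) (Fin n) (ZMod 2)).mulVec v = v)
    (h13 : ∀ (g : L) (v : Fin n → ZMod 2), orderOf g = 13 →
      (ρ g : Matrix (Fin n) (Fin n) (ZMod 2)).mulVec v = v → v = 0)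
    (B : ℕ) : Good (HB ρ (B + 1)) := by
  refine ⟨?_, ?_, ?_⟩
  · intro p hp
    rw [card_HB ρ _ hc]
    constructor
    · intro h
      rcases hp.dvd_mul.mp h with h | h
      · exact Or.inl ((Nat.prime_dvd_prime_iff_eq hp Nat.prime_two).mp (hp.dvd_of_dvd_pow h))
      · exact prime_dvd_card p hp h
    · rintro (rfl | rfl | rfl | rfl | rfl) <;> exact Dvd.dvd.mul_left (by norm_num) _
  · intro m hm
    simp only [List.mem_cons, List.mem_nil_iff, or_false] at hm
    rcases hm with rfl | rfl | rfl | rfl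
    · obtain ⟨g, hg⟩ := h6
      exact ⟨inr g, by rw [orderOf_injective _ inr_injective, hg]⟩
    · obtain ⟨g, v, hg, hv, hgv⟩ := h5
      exact exists_two_mul ρ B g v 5 (by norm_num) hg hv hgv
    · obtain ⟨g, v, hg, hv, hgv⟩ := h7
      exact exists_two_mul ρ B g v 7 (by norm_num) hg hv hgv
    · obtain ⟨g, hg⟩ := h15
      exact ⟨inr g, by rw [orderOf_injective _ inr_injective, hg]⟩
  · intro m hm
    simp only [List.mem_cons, List.mem_nil_iff, or_false] at hm
    rcases hm with rfl | rfl | rfl | rfl | rfl | rfl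
    · exact no_odd ρ hdvd _ 21 (by norm_num) (by norm_num) (by norm_num) (by norm_num) (by norm_num)
    · exact no_odd ρ hdvd _ 35 (by norm_num) (by norm_num) (by norm_num) (by norm_num) (by norm_num)
    · exact no_odd ρ hdvd _ 39 (by norm_num) (by norm_num) (by norm_num) (by norm_num) (by norm_num)
    · exact no_odd ρ hdvd _ 65 (by norm_num) (by norm_num) (by norm_num) (by norm_num) (by norm_num)
    · exact no_odd ρ hdvd _ 91 (by norm_num) (by norm_num) (by norm_num) (by norm_num) (by norm_num)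
    · exact no_26 ρ hdvd h13 _

end Cfsg.Agent.Lib.Helper93.Sz8
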