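import Cfsg.Agent.Lib.Helper93.Sz8.Spec
import Cfsg.Agent.Lib.Helper93.Sz8.PG

/-!
# Arbitrarily large groups `2^{48 B} : (Sz(8):3)` with the prime graph of `PSp₆(3)` (helper93)
-/

set_option autoImplicit false

namespace Cfsg.Agent.Lib.Helper93.Sz8

open Cfsg.Agent.Lib.Helper93.S63

theorem exists_good (B : ℕ) : ∃ (H : Type) (_ : Group H) (_ : Finite H), B < Nat.card H ∧ Good H :=
  ⟨HB rho (B + 1), inferInstance, finite_HB rho _, lt_card_HB rho (by norm_num) B card_Dg,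
    good_HB rho card_Dg orderOf_dvd ⟨_, order6⟩ ⟨_, order15⟩ ⟨_, _, order5, fix5B.2, fix5⟩
      ⟨_, _, order7, fix7B.2, fix7⟩ (fun g v hg hv => nofix13 g hg v hv) B⟩

end Cfsg.Agent.Lib.Helper93.Sz8
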