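import Cfsg.Agent.Lib.Helper93.HeC.Gen
import Cfsg.Agent.Lib.Helper93.Sz8.ASide
import Cfsg.Agent.Lib.Helper93.Sz8.BSide
import Cfsg.Agent.Lib.Helper93.Sz8.Chain

/-!
# The group `Sz(8):3` with a 48-dimensional module over `F₂` (helper93)

The group is realised as the diagonal subgroup of `Sym(65) × GL₄₈(2)` generated by seven letters.  A coset
enumeration bounds its order by 87360; a base and transversals on the 65 points enumerate its elements.
-/

set_option autoImplicit false
set_option maxRecDepth 100000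

namespace Cfsg.Agent.Lib.Helper93.Sz8

open Cfsg.Agent.Lib.Helper28 Cfsg.Agent.Lib.Helper93.HeC Cfsg.Agent.Lib.Helper93.U34

abbrev GL48 : Type := GL (Fin 48) (ZMod 2)

/-- the diagonal letters -/
def vD (x : ℕ) : P65 × GL48 := (vA x, vB x)

theorem evalW_vD (w : List ℕ) : evalW vD w = (evalW vA w, evalW vB w) := by
  induction w with
  | nil => rfl
  | cons x w ih => rw [evalW_cons, evalW_cons, evalW_cons, ih]; rfl

/-- the diagonal subgroup -/
def Dg : Subgroup (P65 × GL48) := Sg vD [0, 1, 2, 3, 4, 5, 6]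

theorem Dg_bound : Finite Dg ∧ Nat.card Dg ≤ 87360 := by
  refine bound_0 vD ?_ ?_
  · intro w hw
    rw [evalW_vD, vA_W w hw, vB_W w hw]; rfl
  · intro y hy
    show (vA (oinv y), vB (oinv y)) = (vA y, vB y)⁻¹
    rw [vA_oinv y hy, vB_oinv y hy]; rfl

instance instFiniteDg : Finite Dg := Dg_bound.1

theorem mem_letters (w : List ℕ) (h : ∀ y ∈ w, y < 7) : ∀ y ∈ w, y ∈ [0, 1, 2, 3, 4, 5, 6] := by
  intro y hy
  have := h y hy
  simp only [List.mem_cons, List.mem_nil_iff, or_false]
  omega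

/-- elements given by words -/
def el (w : List ℕ) : Dg :=
  if h : ∀ y ∈ w, y < 7 then ⟨evalW vD w, evalW_mem_Sg vD _ w (mem_letters w h)⟩ else 1

theorem coe_el (w : List ℕ) (h : ∀ y ∈ w, y < 7) : (el w : P65 × GL48) = evalW vD w := by
  unfold el
  rw [dif_pos h]

theorem el_nil : el [] = 1 := Subtype.ext (coe_el [] (by simp))

theorem el_append (u v : List ℕ) (hu : ∀ y ∈ u, y < 7) (hv : ∀ y ∈ v, y < 7) :
    el (u ++ v) = el u * el v := by
  have huv : ∀ y ∈ u ++ v, y < 7 := by
    intro y hy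
    rcases List.mem_append.mp hy with h | h
    · exact hu y h
    · exact hv y h
  apply Subtype.ext
  rw [Subgroup.coe_mul, coe_el _ huv, coe_el _ hu, coe_el _ hv, evalW_append]

/-- the action on the points -/
def act (g : Dg) (c : Fin 65) : Fin 65 := g.1.1 c

theorem act_mul (g h : Dg) (c : Fin 65) : act (g * h) c = act g (act h c) := rfl

theorem act_one (c : Fin 65) : act 1 c = c := rfl

theorem act_el (w : List ℕ) (hw : ∀ y ∈ w, y < 7) (c : Fin 65) : (act (el w) c).val = trL w c.val := by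
  unfold act
  rw [coe_el w hw, evalW_vD]
  exact evalWA_apply w hw c

theorem act_pow (g : Dg) (m : ℕ) (c : Fin 65) : act (g ^ m) c = (act g)^[m] c := by
  induction m with
  | zero => rfl
  | succ m ih => rw [pow_succ', act_mul, ih, Function.iterate_succ_apply']

theorem act_el_pow (w : List ℕ) (hw : ∀ y ∈ w, y < 7) (m : ℕ) (c : Fin 65) :
    (act (el w ^ m) c).val = (trL w)^[m] c.val := by
  rw [act_pow]
  induction m with
  | zero => rfl
  | succ m ih => rw [Function.iterate_succ_apply', Function.iterate_succ_apply', act_el w hw, ih]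

theorem hR : ∀ k < 65, (∀ y ∈ rW.getD k [], y < 7) ∧ trL (rW.getD k []) 0 = k := by decide +kernel

theorem hU : ∀ j < 64, (∀ y ∈ uW.getD j [], y < 7) ∧ trL (uW.getD j []) 0 = 0 ∧
    trL (uW.getD j []) 1 = j + 1 := by decide +kernel

theorem hD : ∀ i < 21, (∀ y ∈ dW.getD i [], y < 7) ∧ trL (dW.getD i []) 0 = 0 ∧
    trL (dW.getD i []) 1 = 1 := by decide +kernel

theorem hDa : ∀ i < 21, ∀ i' < 21, trL (dW.getD i []) pa = trL (dW.getD i' []) pa → i = i' := by
  decide +kernel

/-- the third base point -/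
def pA3 : Fin 65 := ⟨pa, by decide⟩

theorem D_fix0 (i : ℕ) (hi : i < 21) : act (el (dW.getD i [])) 0 = 0 :=
  Fin.ext (by rw [act_el _ (hD i hi).1]; exact (hD i hi).2.1)

theorem D_fix1 (i : ℕ) (hi : i < 21) : act (el (dW.getD i [])) 1 = 1 :=
  Fin.ext (by rw [act_el _ (hD i hi).1]; exact (hD i hi).2.2)

theorem U_fix0 (j : ℕ) (hj : j < 64) : act (el (uW.getD j [])) 0 = 0 :=
  Fin.ext (by rw [act_el _ (hU j hj).1]; exact (hU j hj).2.1)

theorem U_one (j : ℕ) (hj : j < 64) : (act (el (uW.getD j [])) 1).val = j + 1 := by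
  rw [act_el _ (hU j hj).1]; exact (hU j hj).2.2

theorem R_zero (k : ℕ) (hk : k < 65) : (act (el (rW.getD k [])) 0).val = k := by
  rw [act_el _ (hR k hk).1]; exact (hR k hk).2

/-- the enumeration -/
def E (k j i : ℕ) : Dg := el (rW.getD k []) * (el (uW.getD j []) * el (dW.getD i []))

theorem E_zero (k j i : ℕ) (hk : k < 65) (hj : j < 64) (hi : i < 21) : (act (E k j i) 0).val = k := by
  unfold E
  rw [act_mul, act_mul, D_fix0 i hi, U_fix0 j hj, R_zero k hk]

theorem E_inj : Function.Injective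
    (fun x : Fin 65 × Fin 64 × Fin 21 => E x.1.val x.2.1.val x.2.2.val) := by
  rintro ⟨k, j, i⟩ ⟨k', j', i'⟩ h
  have h' : E k.val j.val i.val = E k'.val j'.val i'.val := h
  have h0 : k = k' := by
    apply Fin.ext
    rw [← E_zero k.val j.val i.val k.isLt j.isLt i.isLt, h', E_zero _ _ _ k'.isLt j'.isLt i'.isLt]
  subst h0
  have h1 : el (uW.getD j.val []) * el (dW.getD i.val []) =
      el (uW.getD j'.val []) * el (dW.getD i'.val []) := mul_left_cancel h'
  have h2 : j = j' := by
    apply Fin.ext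
    have e := congrArg (fun g => (act g 1).val) h1
    simp only [act_mul, D_fix1 _ i.isLt, D_fix1 _ i'.isLt, U_one _ j.isLt, U_one _ j'.isLt] at e
    omega
  subst h2
  have h3 : el (dW.getD i.val []) = el (dW.getD i'.val []) := mul_left_cancel h1
  have h4 : i = i' := by
    apply Fin.ext
    have e := congrArg (fun g => (act g pA3).val) h3
    simp only [act_el _ (hD _ i.isLt).1, act_el _ (hD _ i'.isLt).1] at e
    exact hDa _ i.isLt _ i'.isLt e
  subst h4
  rfl

theorem card_idx : Nat.card (Fin 65 × Fin 64 × Fin 21) = 87360 := by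
  rw [Nat.card_eq_fintype_card]
  simp

theorem E_bij : Function.Bijective
    (fun x : Fin 65 × Fin 64 × Fin 21 => E x.1.val x.2.1.val x.2.2.val) :=
  E_inj.bijective_of_nat_card_le (by rw [card_idx]; exact Dg_bound.2)

theorem card_Dg : Nat.card Dg = 87360 := by
  rw [← Nat.card_congr (Equiv.ofBijective _ E_bij), card_idx]

theorem exists_E (g : Dg) : ∃ k < 65, ∃ j < 64, ∃ i < 21, g = E k j i := by
  obtain ⟨⟨k, j, i⟩, rfl⟩ := E_bij.2 g
  exact ⟨k.val, k.isLt, j.val, j.isLt, i.val, i.isLt, rfl⟩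

theorem eq_one_of_fix (g : Dg) (h0 : act g 0 = 0) (h1 : act g 1 = 1) (ha : act g pA3 = pA3) :
    g = 1 := by
  obtain ⟨k, hk, j, hj, i, hi, rfl⟩ := exists_E g
  have e0 : k = 0 := by
    rw [← E_zero k j i hk hj hi, h0]; rfl
  subst e0
  have r0 : el (rW.getD 0 []) = 1 := el_nil
  unfold E at h1 ha ⊢
  rw [r0, one_mul] at h1 ha ⊢
  have e1 : j = 0 := by
    have e := congrArg Fin.val h1
    rw [act_mul, D_fix1 i hi, U_one j hj] at e
    have : ((1 : Fin 65) : ℕ) = 1 := rfl
    omega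
  subst e1
  have u0 : el (uW.getD 0 []) = 1 := el_nil
  rw [u0, one_mul] at ha ⊢
  have e2 : i = 0 := by
    apply hDa i hi 0 (by norm_num)
    have e := congrArg Fin.val ha
    rw [act_el _ (hD i hi).1] at e
    exact e
  subst e2
  exact el_nil

/-- the word of an element -/
def wd (k j i : ℕ) : List ℕ := rW.getD k [] ++ (uW.getD j [] ++ dW.getD i [])

theorem wd_lt (k j i : ℕ) (hk : k < 65) (hj : j < 64) (hi : i < 21) : ∀ y ∈ wd k j i, y < 7 := by
  intro y hy
  rcases List.mem_append.mp hy with h | h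
  · exact (hR k hk).1 y h
  · rcases List.mem_append.mp h with h | h
    · exact (hU j hj).1 y h
    · exact (hD i hi).1 y h

theorem E_eq (k j i : ℕ) (hk : k < 65) (hj : j < 64) (hi : i < 21) : E k j i = el (wd k j i) := by
  unfold E wd
  rw [el_append _ _ (hR k hk).1, el_append _ _ (hU j hj).1 (hD i hi).1]
  intro y hy
  rcases List.mem_append.mp hy with h | h
  · exact (hU j hj).1 y h
  · exact (hD i hi).1 y h

theorem pow_el_eq_one (w : List ℕ) (hw : ∀ y ∈ w, y < 7) (m : ℕ)
    (h : ([0, 1, pa].all fun b => (trL w)^[m] b == b) = true) : el w ^ m = 1 := by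
  simp only [List.all_cons, List.all_nil, Bool.and_true, Bool.and_eq_true, beq_iff_eq] at h
  apply eq_one_of_fix
  · exact Fin.ext (by rw [act_el_pow w hw]; exact h.1)
  · exact Fin.ext (by rw [act_el_pow w hw]; exact h.2.1)
  · exact Fin.ext (by rw [act_el_pow w hw]; exact h.2.2)

theorem pow_el_ne_one (w : List ℕ) (hw : ∀ y ∈ w, y < 7) (m : ℕ) (h : (trL w)^[m] 0 ≠ 0) :
    el w ^ m ≠ 1 := by
  intro e
  apply h
  have := act_el_pow w hw m 0
  rw [e] at this
  exact this.symm

/-- the exponent check -/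
def chk (w : List ℕ) : Bool :=
  [12, 15, 7, 13].any fun m => [0, 1, pa].all fun b => (trL w)^[m] b == b

theorem chk_all : allBelow (fun k => allBelow (fun j => allBelow (fun i => chk (wd k j i)) 21) 64) 2
    = true := by decide +kernel

theorem exp_E (k j i : ℕ) (hk : k < 2) (hj : j < 64) (hi : i < 21) :
    E k j i ^ 12 = 1 ∨ E k j i ^ 15 = 1 ∨ E k j i ^ 7 = 1 ∨ E k j i ^ 13 = 1 := by
  have h := allBelow_iff.mp (allBelow_iff.mp (allBelow_iff.mp chk_all k hk) j hj) i hi
  have hk' : k < 65 := by omega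
  rw [E_eq k j i hk' hj hi]
  have hw := wd_lt k j i hk' hj hi
  unfold chk at h
  simp only [List.any_cons, List.any_nil, Bool.or_false, Bool.or_eq_true] at h
  rcases h with h | h | h | h
  · exact Or.inl (pow_el_eq_one _ hw _ h)
  · exact Or.inr (Or.inl (pow_el_eq_one _ hw _ h))
  · exact Or.inr (Or.inr (Or.inl (pow_el_eq_one _ hw _ h)))
  · exact Or.inr (Or.inr (Or.inr (pow_el_eq_one _ hw _ h)))

theorem exists_conj (g : Dg) : ∃ c : Dg, ∃ k < 2, ∃ j < 64, ∃ i < 21, c * g * c⁻¹ = E k j i := by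
  by_cases h0 : (act g 0).val = 0
  · obtain ⟨k, hk, j, hj, i, hi, rfl⟩ := exists_E g
    rw [E_zero k j i hk hj hi] at h0
    exact ⟨1, k, by omega, j, hj, i, hi, by simp⟩
  · obtain ⟨j0, hj0⟩ : ∃ j0, (act g 0).val = j0 + 1 := ⟨(act g 0).val - 1, by omega⟩
    have hj0' : j0 < 64 := by have := (act g 0).isLt; omega
    set c : Dg := (el (uW.getD j0 []))⁻¹ with hc
    have h1 : act (c * g * c⁻¹) 0 = 1 := by
      rw [act_mul, act_mul, hc, inv_inv, U_fix0 j0 hj0']
      have e : act g 0 = act (el (uW.getD j0 [])) 1 := Fin.ext (by rw [hj0, U_one j0 hj0'])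
      rw [e, ← act_mul, inv_mul_cancel, act_one]
    obtain ⟨k, hk, j, hj, i, hi, e⟩ := exists_E (c * g * c⁻¹)
    have hk1 : k = 1 := by
      rw [← E_zero k j i hk hj hi, ← e, h1]; rfl
    exact ⟨c, k, by omega, j, hj, i, hi, e⟩

theorem exp_Dg (g : Dg) : g ^ 12 = 1 ∨ g ^ 15 = 1 ∨ g ^ 7 = 1 ∨ g ^ 13 = 1 := by
  obtain ⟨c, k, hk, j, hj, i, hi, e⟩ := exists_conj g
  have key : ∀ m : ℕ, E k j i ^ m = 1 → g ^ m = 1 := by
    intro m hm
    rw [← e, conj_pow] at hm
    have : g ^ m = c⁻¹ * (c * g ^ m * c⁻¹) * c := by group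
    rw [this, hm]; group
  rcases exp_E k j i hk hj hi with h | h | h | h
  · exact Or.inl (key _ h)
  · exact Or.inr (Or.inl (key _ h))
  · exact Or.inr (Or.inr (Or.inl (key _ h)))
  · exact Or.inr (Or.inr (Or.inr (key _ h)))

theorem order13 : orderOf (el w13) = 13 := by
  have : Fact (Nat.Prime 13) := ⟨by norm_num⟩
  apply orderOf_eq_prime
  · exact pow_el_eq_one w13 (by decide) 13 (by decide +kernel)
  · have := pow_el_ne_one w13 (by decide) 1 (by decide +kernel)
    rwa [pow_one] at this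

theorem order5 : orderOf (el w5) = 5 := by
  have : Fact (Nat.Prime 5) := ⟨by norm_num⟩
  apply orderOf_eq_prime
  · exact pow_el_eq_one w5 (by decide) 5 (by decide +kernel)
  · have := pow_el_ne_one w5 (by decide) 1 (by decide +kernel)
    rwa [pow_one] at this

end Cfsg.Agent.Lib.Helper93.Sz8
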