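import Cfsg.Agent.Lib.Helper93.Sz8.Main

/-!
# `Sz(8):3` and its 48-dimensional module: summary (helper93)
-/

set_option autoImplicit false
set_option maxRecDepth 100000

namespace Cfsg.Agent.Lib.Helper93.Sz8

open Cfsg.Agent.Lib.Helper28 Cfsg.Agent.Lib.Helper93.HeC Cfsg.Agent.Lib.Helper93.U34

theorem pow_el_ne_one' (w : List ℕ) (hw : ∀ y ∈ w, y < 7) (m : ℕ) (b : Fin 65)
    (h : (trL w)^[m] b.val ≠ b.val) : el w ^ m ≠ 1 := by
  intro e
  apply h
  have := act_el_pow w hw m b
  rw [e] at this
  exact this.symm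

theorem order7 : orderOf (el w7) = 7 := by
  have : Fact (Nat.Prime 7) := ⟨by norm_num⟩
  apply orderOf_eq_prime
  · exact pow_el_eq_one w7 (by decide) 7 (by decide +kernel)
  · have := pow_el_ne_one' w7 (by decide) 1 pA3 (by decide +kernel)
    rwa [pow_one] at this

theorem order6 : orderOf (el w6) = 6 := by
  apply orderOf_eq_of_pow_and_pow_div_prime (by norm_num)
  · exact pow_el_eq_one w6 (by decide) 6 (by decide +kernel)
  · intro p hp hd
    have hle : p ≤ 6 := Nat.le_of_dvd (by norm_num) hd
    have hp' : p = 2 ∨ p = 3 := by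
      interval_cases p <;> simp_all (config := { decide := true })
    rcases hp' with rfl | rfl
    · exact pow_el_ne_one' w6 (by decide) _ 0 (by decide +kernel)
    · exact pow_el_ne_one' w6 (by decide) _ pA3 (by decide +kernel)

theorem order15 : orderOf (el w15) = 15 := by
  apply orderOf_eq_of_pow_and_pow_div_prime (by norm_num)
  · exact pow_el_eq_one w15 (by decide) 15 (by decide +kernel)
  · intro p hp hd
    have hle : p ≤ 15 := Nat.le_of_dvd (by norm_num) hd
    have hp' : p = 3 ∨ p = 5 := by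
      interval_cases p <;> simp_all (config := { decide := true })
    rcases hp' with rfl | rfl
    · exact pow_el_ne_one' w15 (by decide) _ 0 (by decide +kernel)
    · exact pow_el_ne_one' w15 (by decide) _ 0 (by decide +kernel)

/-- the representation -/
def rho : Dg →* GL48 := (MonoidHom.snd P65 GL48).comp Dg.subtype

theorem rho_el (w : List ℕ) (hw : ∀ y ∈ w, y < 7) : rho (el w) = evalW vB w := by
  show (el w : P65 × GL48).2 = _
  rw [coe_el w hw, evalW_vD]

theorem fix5 : ((rho (el w5) : GL48) : M48).mulVec (vec48 fv5) = vec48 fv5 := by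
  rw [rho_el w5 (by decide), word5B]
  exact fix5B.1

theorem fix7 : ((rho (el w7) : GL48) : M48).mulVec (vec48 fv7) = vec48 fv7 := by
  rw [rho_el w7 (by decide), word7B]
  exact fix7B.1

theorem nofix13 (g : Dg) (hg : orderOf g = 13) (v : Fin 48 → ZMod 2)
    (hv : ((rho g : GL48) : M48).mulVec v = v) : v = 0 := by
  refine no_fix_of_conj' rho 13 6720 (by norm_num) (by rw [card_Dg]) (by norm_num) _ order13 ?_ g hg v hv
  intro v' hv'
  rw [rho_el w13 (by decide), word13B] at hv'
  exact no_fix_of_inv _ _ inv13B v' hv'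

/-- the order of an element divides 12, 15, 7 or 13 -/
theorem orderOf_dvd (g : Dg) : orderOf g ∣ 12 ∨ orderOf g ∣ 15 ∨ orderOf g ∣ 7 ∨ orderOf g ∣ 13 := by
  rcases exp_Dg g with h | h | h | h
  · exact Or.inl (orderOf_dvd_of_pow_eq_one h)
  · exact Or.inr (Or.inl (orderOf_dvd_of_pow_eq_one h))
  · exact Or.inr (Or.inr (Or.inl (orderOf_dvd_of_pow_eq_one h)))
  · exact Or.inr (Or.inr (Or.inr (orderOf_dvd_of_pow_eq_one h)))

end Cfsg.Agent.Lib.Helper93.Sz8
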